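import Groth.Agent.Pic13.H949.GenFlat
import Groth.Agent.Pic13.H943.FlatBC
import Groth.Agent.Fga.SecComp
import Groth.Agent.FormalB.PullCoh
import Groth.Agent.S0034
import Groth.Agent.S0002
import Groth.Agent.S0389

/-!
# Generic base change for `H^0`

`A` a Noetherian domain, `B` a Noetherian `A`-algebra of finite type, `Z` proper over `B`, `M` coherent on `Z`: there is
`a ≠ 0` in `A` such that `K ⊗_A Γ(Z, M) → Γ(Z_K, M_K)` is bijective for every `A`-algebra `K` in which `a` is invertible.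
-/

set_option autoImplicit false
set_option linter.style.haveILetI false
universe u

open CategoryTheory CategoryTheory.Limits AlgebraicGeometry Opposite TensorProduct TopologicalSpace

namespace Groth.Agent.Pic13.H949.PushAff

open Groth.Agent.Ega3B Groth.Agent.Ega3B.SecLift Groth.Agent.VarietyB Groth.Agent.Ega3B.TensorASec
  Groth.Agent.Ega3B.EqzSections Groth.Agent.Pic13.H949.GenFlat Groth.Agent.VarietyB.BCAlg

section Coh

variable {A B : Type u} [CommRing A] [CommRing B] [Algebra A B]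
  {Z : Scheme.{u}} [Z.Over (Spec (CommRingCat.of A))] (r : Z ⟶ Spec (CommRingCat.of B))
  (hr : r ≫ Spec.map (CommRingCat.ofHom (algebraMap A B)) = Z ↘ Spec (CommRingCat.of A))

include hr in
theorem toGlobal_eq (a : A) : Coh.toGlobal (Z ↘ Spec (CommRingCat.of A)) a = Coh.toGlobal r (algebraMap A B a) := by
  rw [← hr]
  have h1 := congr(($(Scheme.ΓSpecIso_inv_naturality (CommRingCat.ofHom (algebraMap A B)))).hom a)
  change (r ≫ Spec.map (CommRingCat.ofHom (algebraMap A B))).appTop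
    ((Scheme.ΓSpecIso (CommRingCat.of A)).inv.hom a) = r.appTop ((Scheme.ΓSpecIso (CommRingCat.of B)).inv.hom
      (algebraMap A B a))
  rw [Scheme.Hom.comp_appTop]
  exact congrArg (r.appTop) h1.symm

include hr in
/-- Generic flatness of the cohomology. -/
theorem exists_flat_HH [IsDomain A] [Algebra.FiniteType A B] [IsNoetherianRing B] [IsProper r]
    (M : Z.Modules) (hM : Coh.IsCoh M) (p : ℕ) :
    ∃ a : A, a ≠ 0 ∧ ∀ (A₁ : Type u) [CommRing A₁] [Algebra A A₁], IsUnit (algebraMap A A₁ a) →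
      Module.Flat A₁ (A₁ ⊗[A] Coh.HH Z M p) := by
  letI zB : Z.Over (Spec (CommRingCat.of B)) := ⟨r⟩
  letI m2 : Module B (Coh.HH Z M p) := Coh.moduleOver B Z M p
  haveI hp : IsProper (Z ↘ Spec (CommRingCat.of B)) := inferInstanceAs (IsProper r)
  haveI hfin : Module.Finite B (Coh.HH Z M p) := Groth.Agent.S0002.result B Z M hM p
  haveI : IsScalarTower A B (Coh.HH Z M p) := IsScalarTower.of_algebraMap_smul fun a x => by
    change Coh.toGlobal r (algebraMap A B a) • x = Coh.toGlobal (Z ↘ Spec (CommRingCat.of A)) a • x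
    rw [toGlobal_eq r hr]
  obtain ⟨a, ha, hfree, -⟩ := Groth.Agent.S0389.result (R := A) (S := B) (M := Coh.HH Z M p)
  exact ⟨a, ha, fun A₁ _ _ hu => flat_of_isUnit (Module.Flat.of_free (R := Localization.Away a)) A₁ hu⟩

end Coh

/-- Vanishing of the cohomology in large degrees. -/
theorem exists_van {X S : Scheme.{u}} (iX : X ⟶ S) [IsAffine S] [QuasiCompact iX] [IsSeparated iX]
    (F : X.Modules) (hF : Coh.IsQCoh F) : ∃ N : ℕ, ∀ p, N ≤ p → Subsingleton (Coh.HH X F p) := by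
  have h1 : CompactSpace X := QuasiCompact.compactSpace_of_compactSpace iX
  have h2 : X.IsSeparated := by
    have : IsSeparated (terminal.from X) := by
      have : terminal.from X = iX ≫ terminal.from S := terminal.hom_ext _ _
      rw [this]
      infer_instance
    exact ⟨this⟩
  obtain ⟨n, U, hcov, hU⟩ := AcyclicBC.exists_cover X
  refine ⟨Fintype.card (Fin n), fun p hp => ?_⟩
  letI := fun n => CechBC.modC iX F U n
  letI := H943.FlatBC.modH iX F p
  obtain ⟨θ, hθ, -⟩ := H943.FlatBC.exists_theta iX F hF U hcov hU p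
  haveI := CechBC.subsingleton_C F U p hp
  exact hθ.subsingleton

theorem flat_of_equiv {A B P : Type*} [CommRing A] [CommRing B] [AddCommGroup P] [Module A P]
    [Module B P] (e : A ≃+* B) (h : ∀ (a : A) (p : P), a • p = e a • p) (hf : Module.Flat B P) :
    Module.Flat A P := by
  let i1 : Algebra A B := e.toRingHom.toAlgebra
  have i3 : IsScalarTower A B P := IsScalarTower.of_algebraMap_smul fun a p => (h a p).symm
  let e' : A ≃ₗ[A] B := { e with map_smul' := fun a b ↦ e.map_mul a b }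
  have i4 : Module.Flat A B := Module.Flat.of_linearEquiv e'.symm
  exact Module.Flat.trans A B P

section Kap

variable {A K : Type u} [CommRing A] [CommRing K] [Algebra A K] {X Z : Scheme.{u}}
  [X.Over (Spec (CommRingCat.of A))] {g : Z ⟶ X} {q : Z ⟶ Spec (CommRingCat.of K)}
  (H : IsPullback g q (X ↘ Spec (CommRingCat.of A)) (Spec.map (CommRingCat.ofHom (algebraMap A K))))
  (N : X.Modules)

/-- `kap` is bijective if the base change map is. -/
theorem kap_bijective_of_isBC {V : X.Opens}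
    (hBC : FlatH0.IsBC H.w N (US := ⊤) (UT := ⊤) (EqzSections.le_preimage_top _ ⊤) (UX := V)
      (EqzSections.le_preimage_top _ V) (UY := g ⁻¹ᵁ V) (le_refl _) (EqzSections.le_preimage_top q _)) :
    Function.Bijective (kap H N V) := by
  let S := Spec (CommRingCat.of A)
  let T := Spec (CommRingCat.of K)
  let f : T ⟶ S := Spec.map (CommRingCat.ofHom (algebraMap A K))
  let iX : X ⟶ S := X ↘ Spec (CommRingCat.of A)
  let i1 : Algebra Γ(S, ⊤) Γ(T, ⊤) := FlatH0.algOver f (le_preimage_top f ⊤)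
  let i2 : Module Γ(S, ⊤) Γ(N, V) := FlatH0.modOver iX N (le_preimage_top iX V)
  let i3 : Module Γ(T, ⊤) Γ((Scheme.Modules.pullback g).obj N, g ⁻¹ᵁ V) :=
    FlatH0.modOver q ((Scheme.Modules.pullback g).obj N) (le_preimage_top q _)
  let ψ : Γ(T, ⊤) ⊗[Γ(S, ⊤)] Γ(N, V) →+ Γ((Scheme.Modules.pullback g).obj N, g ⁻¹ᵁ V) :=
    (BCAlg.bc (FlatH0.secS H.w N (US := ⊤) (UT := ⊤) (le_preimage_top f ⊤) (UX := V)
    (le_preimage_top iX V) (UY := g ⁻¹ᵁ V) (le_refl _) (le_preimage_top q _))).toAddMonoidHom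
  let i4 : Module Γ(S, ⊤) (SecM A N V) := i2
  refine bijective_of_transfer (A := A) (K := K) (A' := Γ(S, ⊤)) (K' := Γ(T, ⊤))
    (M := SecM A N V)
    (Scheme.ΓSpecIso (CommRingCat.of A)).symm.commRingCatIsoToRingEquiv
    (Scheme.ΓSpecIso (CommRingCat.of K)).symm.commRingCatIsoToRingEquiv ?_ ?_ (kap H N V) ψ ?_ hBC
  · intro a
    have h1 := congr(($(Scheme.ΓSpecIso_inv_naturality
      (CommRingCat.ofHom (algebraMap A K)))).hom a)
    refine h1.trans ?_
    have h3 : f.appLE ⊤ ⊤ (le_preimage_top _ _) = f.appTop := (Scheme.Hom.app_eq_appLE _).symm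
    change _ = (f.appLE ⊤ ⊤ (le_preimage_top _ _)).hom
      ((Scheme.ΓSpecIso (CommRingCat.of A)).inv.hom a)
    rw [h3]
    rfl
  · intro a m
    rfl
  · intro k m
    obtain ⟨m, rfl⟩ := (toM A N V).surjective m
    rw [kap_tmul]
    exact (BCAlg.bc_tmul (FlatH0.secS H.w N (US := ⊤) (UT := ⊤) (le_preimage_top f ⊤) (UX := V)
      (le_preimage_top iX V) (UY := g ⁻¹ᵁ V) (le_refl _) (le_preimage_top q _)) _ _).symm

end Kap

section Comp

variable {A A₁ K : Type u} [CommRing A] [CommRing A₁] [CommRing K] [Algebra A A₁] [Algebra A K] [Algebra A₁ K]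
  [IsScalarTower A A₁ K] {X X₁ Z : Scheme.{u}} [X.Over (Spec (CommRingCat.of A))]
  [X₁.Over (Spec (CommRingCat.of A₁))] {g₁ : X₁ ⟶ X} {g' : Z ⟶ X₁} {q : Z ⟶ Spec (CommRingCat.of K)}
  (H₁ : IsPullback g₁ (X₁ ↘ Spec (CommRingCat.of A₁)) (X ↘ Spec (CommRingCat.of A))
    (Spec.map (CommRingCat.ofHom (algebraMap A A₁))))
  (H' : IsPullback g' q (X₁ ↘ Spec (CommRingCat.of A₁)) (Spec.map (CommRingCat.ofHom (algebraMap A₁ K))))
  (H : IsPullback (g' ≫ g₁) q (X ↘ Spec (CommRingCat.of A)) (Spec.map (CommRingCat.ofHom (algebraMap A K))))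
  (N : X.Modules)

/-- Transitivity of base change. -/
theorem kap_comp_bijective (V : X.Opens) (h₁ : Function.Bijective (kap H₁ N V))
    (h' : Function.Bijective (kap H' ((Scheme.Modules.pullback g₁).obj N) (g₁ ⁻¹ᵁ V))) :
    Function.Bijective (kap H N V) := by
  let N₁ := (Scheme.Modules.pullback g₁).obj N
  let e₁ : (A₁ ⊗[A] SecM A N V) ≃ₗ[A₁] SecM A₁ N₁ (g₁ ⁻¹ᵁ V) :=
    { AddEquiv.ofBijective (kap H₁ N V) h₁ with
      map_smul' := fun c x => kap_smul_K H₁ N V c x }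
  let φ : Γ((Scheme.Modules.pullback g').obj N₁, g' ⁻¹ᵁ (g₁ ⁻¹ᵁ V)) →+
      Γ((Scheme.Modules.pullback (g' ≫ g₁)).obj N, (g' ≫ g₁) ⁻¹ᵁ V) :=
    (((Scheme.Modules.pullbackComp g' g₁).hom.app N).app (g' ⁻¹ᵁ (g₁ ⁻¹ᵁ V))).hom
  have hφ : Function.Bijective φ :=
    ConcreteCategory.bijective_of_isIso (((Scheme.Modules.pullbackComp g' g₁).hom.app N).app (g' ⁻¹ᵁ (g₁ ⁻¹ᵁ V)))
  have hφs : ∀ (c : Γ(Z, g' ⁻¹ᵁ (g₁ ⁻¹ᵁ V))) (y : Γ((Scheme.Modules.pullback g').obj N₁, g' ⁻¹ᵁ (g₁ ⁻¹ᵁ V))),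
      φ (c • y) = (show Γ(Z, (g' ≫ g₁) ⁻¹ᵁ V) from c) • φ y := fun c y =>
    Scheme.Modules.Hom.app_smul ((Scheme.Modules.pullbackComp g' g₁).hom.app N) c y
  have key : ∀ x : K ⊗[A₁] (A₁ ⊗[A] SecM A N V), kap H N V (AlgebraTensorModule.cancelBaseChange A A₁ A₁ K
      (SecM A N V) x) = φ (kap H' N₁ (g₁ ⁻¹ᵁ V) (e₁.lTensor K x)) := by
    intro x
    induction x using TensorProduct.induction_on with
    | zero => simp only [map_zero]
    | add x y hx hy => simp only [map_add, hx, hy]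
    | tmul k y =>
      induction y using TensorProduct.induction_on with
      | zero => simp only [tmul_zero, map_zero]
      | add x y hx hy => simp only [tmul_add, map_add, hx, hy]
      | tmul c n =>
        obtain ⟨n, rfl⟩ := (toM A N V).surjective n
        have h1 : e₁ (c ⊗ₜ[A] toM A N V n) = c • e₁ (1 ⊗ₜ[A] toM A N V n) := by
          rw [← map_smul, smul_tmul', smul_eq_mul, mul_one]
        have h2 : e₁ (1 ⊗ₜ[A] toM A N V n) = toM A₁ N₁ (g₁ ⁻¹ᵁ V)
            (PullSec.sec g₁ N (le_refl (g₁ ⁻¹ᵁ V)) n) := by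
          have h5 : kap H₁ N V (1 ⊗ₜ[A] toM A N V n) = PullSec.sec g₁ N (le_refl (g₁ ⁻¹ᵁ V)) n := by
            rw [kap_tmul, map_one, one_smul]
          exact h5
        rw [AlgebraTensorModule.cancelBaseChange_tmul, kap_tmul, LinearEquiv.lTensor_tmul, h1, h2,
          ← smul_tmul, kap_tmul, hφs]
        have h3 := Fga.SecComp.sec_comp g' g₁ N (U := V) (V := g₁ ⁻¹ᵁ V) (W := g' ⁻¹ᵁ (g₁ ⁻¹ᵁ V)) (le_refl _)
          (le_refl _) (le_refl _) n
        exact congrArg (fun y => secMap q ((g' ≫ g₁) ⁻¹ᵁ V) (c • k) • y) h3.symm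
  have h4 : Function.Bijective fun x => kap H N V (AlgebraTensorModule.cancelBaseChange A A₁ A₁ K
      (SecM A N V) x) := by
    rw [funext key]
    exact hφ.comp (h'.comp (e₁.lTensor K).bijective)
  exact (Function.Bijective.of_comp_iff (kap H N V)
    (AlgebraTensorModule.cancelBaseChange A A₁ A₁ K (SecM A N V)).bijective).mp h4

end Comp

section Main

variable {A B : Type u} [CommRing A] [CommRing B] [Algebra A B]

theorem flat_HH {Z : Scheme.{u}} [Z.Over (Spec (CommRingCat.of A))] [CompactSpace Z] [QuasiSeparatedSpace Z]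
    (M : Z.Modules) [Coh.IsQCoh M] {A₁ : Type u} [CommRing A₁] [Algebra A A₁] [Module.Flat A A₁]
    {Z₁ : Scheme.{u}} [Z₁.Over (Spec (CommRingCat.of A₁))] (g₁ : Z₁ ⟶ Z)
    (H₁ : IsPullback g₁ (Z₁ ↘ Spec (CommRingCat.of A₁)) (Z ↘ Spec (CommRingCat.of A))
      (Spec.map (CommRingCat.ofHom (algebraMap A A₁)))) (p : ℕ)
    (h : Module.Flat A₁ (A₁ ⊗[A] Coh.HH Z M p)) :
    letI := H943.FlatBC.modH (Z₁ ↘ Spec (CommRingCat.of A₁)) ((Scheme.Modules.pullback g₁).obj M) p
    Module.Flat Γ(Spec (CommRingCat.of A₁), ⊤) (Coh.HH Z₁ ((Scheme.Modules.pullback g₁).obj M) p) := by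
  obtain ⟨e⟩ := Groth.Agent.S0034.result A A₁ Z Z₁ g₁ H₁ M p
  have h1 : Module.Flat A₁ (Coh.HH Z₁ ((Scheme.Modules.pullback g₁).obj M) p) := Module.Flat.of_linearEquiv e.symm
  letI := H943.FlatBC.modH (Z₁ ↘ Spec (CommRingCat.of A₁)) ((Scheme.Modules.pullback g₁).obj M) p
  refine flat_of_equiv (Scheme.ΓSpecIso (CommRingCat.of A₁)).commRingCatIsoToRingEquiv ?_ h1
  intro a x
  change (Z₁ ↘ Spec (CommRingCat.of A₁)).appTop.hom a • x =
    (Z₁ ↘ Spec (CommRingCat.of A₁)).appTop.hom ((Scheme.ΓSpecIso (CommRingCat.of A₁)).inv.hom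
      ((Scheme.ΓSpecIso (CommRingCat.of A₁)).hom.hom a)) • x
  rw [Iso.hom_inv_id_apply]

/-- **Generic base change for `H^0`.** -/
theorem exists_kap_top [IsDomain A] [IsNoetherianRing B] [Algebra.FiniteType A B] {Z : Scheme.{u}}
    [Z.Over (Spec (CommRingCat.of A))] (r : Z ⟶ Spec (CommRingCat.of B)) [IsProper r]
    (hr : r ≫ Spec.map (CommRingCat.ofHom (algebraMap A B)) = Z ↘ Spec (CommRingCat.of A))
    (M : Z.Modules) (hM : Coh.IsCoh M) :
    ∃ a : A, a ≠ 0 ∧ ∀ (K : Type u) [CommRing K] [Algebra A K], IsUnit (algebraMap A K a) →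
      ∀ {Z' : Scheme.{u}} {g : Z' ⟶ Z} {q : Z' ⟶ Spec (CommRingCat.of K)}
        (H : IsPullback g q (Z ↘ Spec (CommRingCat.of A)) (Spec.map (CommRingCat.ofHom (algebraMap A K)))),
        Function.Bijective (kap H M ⊤) := by
  have hft : LocallyOfFiniteType (Spec.map (CommRingCat.ofHom (algebraMap A B))) := by
    rw [HasRingHomProperty.Spec_iff (P := @LocallyOfFiniteType)]
    exact RingHom.finiteType_algebraMap.mpr inferInstance
  haveI h1 : LocallyOfFiniteType (Z ↘ Spec (CommRingCat.of A)) := hr ▸ inferInstance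
  haveI h2 : QuasiCompact (Z ↘ Spec (CommRingCat.of A)) := hr ▸ inferInstance
  haveI h3 : IsSeparated (Z ↘ Spec (CommRingCat.of A)) := hr ▸ inferInstance
  haveI h4 : CompactSpace Z := QuasiCompact.compactSpace_of_compactSpace (Z ↘ Spec (CommRingCat.of A))
  haveI h5 : QuasiSeparatedSpace Z :=
    quasiSeparatedSpace_of_quasiSeparated (Z ↘ Spec (CommRingCat.of A))
  obtain ⟨N, hN⟩ := exists_van (Z ↘ Spec (CommRingCat.of A)) M hM.1
  choose a ha hfl using exists_flat_HH r hr M hM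
  obtain ⟨a', ha', hflM⟩ := GenFlat.exists_flat (A := A) M hM
  refine ⟨a' * ∏ p : Fin N, a p, mul_ne_zero ha' (Finset.prod_ne_zero_iff.mpr fun p _ => ha p), ?_⟩
  intro K _ _ hu Z' g q H
  let b := a' * ∏ p : Fin N, a p
  let A₁ := Localization.Away b
  letI : Algebra A₁ K := (IsLocalization.Away.lift (S := A₁) b (g := algebraMap A K) hu).toAlgebra
  haveI : IsScalarTower A A₁ K :=
    IsScalarTower.of_algebraMap_eq fun x => (IsLocalization.Away.lift_eq _ _ _).symm
  haveI hfA : Module.Flat A A₁ := IsLocalization.flat _ (Submonoid.powers b)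
  have hub : IsUnit (algebraMap A A₁ b) := IsLocalization.Away.algebraMap_isUnit b
  rw [map_mul] at hub
  have hua' : IsUnit (algebraMap A A₁ a') := isUnit_of_mul_isUnit_left hub
  have hua : ∀ p : Fin N, IsUnit (algebraMap A A₁ (a p)) := by
    intro p
    have h6 := isUnit_of_mul_isUnit_right hub
    rw [map_prod] at h6
    exact isUnit_of_dvd_unit (Finset.dvd_prod_of_mem (fun p : Fin N => algebraMap A A₁ (a p)) (Finset.mem_univ p)) h6
  let X₁ := pullback (Z ↘ Spec (CommRingCat.of A)) (Spec.map (CommRingCat.ofHom (algebraMap A A₁)))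
  let g₁ : X₁ ⟶ Z := pullback.fst _ _
  letI : X₁.Over (Spec (CommRingCat.of A₁)) := ⟨pullback.snd _ _⟩
  have H₁ : IsPullback g₁ (X₁ ↘ Spec (CommRingCat.of A₁)) (Z ↘ Spec (CommRingCat.of A))
    (Spec.map (CommRingCat.ofHom (algebraMap A A₁))) := IsPullback.of_hasPullback _ _
  let i' := Spec.map (CommRingCat.ofHom (algebraMap A₁ K))
  have hi : i' ≫ Spec.map (CommRingCat.ofHom (algebraMap A A₁)) = Spec.map (CommRingCat.ofHom (algebraMap A K)) := by
    rw [← Spec.map_comp]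
    congr 1
    ext x
    exact (IsScalarTower.algebraMap_apply A A₁ K x).symm
  have hw : g ≫ (Z ↘ Spec (CommRingCat.of A)) = (q ≫ i') ≫ Spec.map (CommRingCat.ofHom (algebraMap A A₁)) := by
    rw [Category.assoc, hi, H.w]
  obtain ⟨g', hg', hq'⟩ : ∃ g' : Z' ⟶ X₁, g' ≫ g₁ = g ∧ g' ≫ (X₁ ↘ Spec (CommRingCat.of A₁)) = q ≫ i' :=
    ⟨H₁.lift g (q ≫ i') hw, H₁.lift_fst _ _ _, H₁.lift_snd _ _ _⟩
  have H' : IsPullback g' q (X₁ ↘ Spec (CommRingCat.of A₁)) i' := by
    refine IsPullback.of_right (h₁₂ := g₁) (v₁₃ := Z ↘ Spec (CommRingCat.of A))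
      (h₂₂ := Spec.map (CommRingCat.ofHom (algebraMap A A₁))) ?_ hq' H₁
    rw [hg', hi]
    exact H
  subst hg'
  haveI hfl1 : Flat (Spec.map (CommRingCat.ofHom (algebraMap A A₁))) := by
    rw [HasRingHomProperty.Spec_iff (P := @Flat)]
    exact RingHom.flat_algebraMap_iff.mpr hfA
  haveI h7 : QuasiCompact (X₁ ↘ Spec (CommRingCat.of A₁)) :=
    inferInstanceAs (QuasiCompact (pullback.snd _ _))
  haveI h8 : IsSeparated (X₁ ↘ Spec (CommRingCat.of A₁)) :=
    inferInstanceAs (IsSeparated (pullback.snd _ _))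
  haveI := hM.1
  have hM₁ : Coh.IsQCoh ((Scheme.Modules.pullback g₁).obj M) := PullSec.isQCoh_pullback g₁ M hM.1
  refine kap_comp_bijective H₁ H' H M ⊤ ?_ ?_
  · exact kap_bijective_of_isBC H₁ M (FlatH0.isBC_top H₁ M hM.1)
  · refine kap_bijective_of_isBC H' _ (H943.FlatBC.isBC_of_flat H' _ hM₁ (hflM A₁ hua' H₁) fun p => ?_)
    refine flat_HH M g₁ H₁ p ?_
    by_cases hp : p < N
    · exact hfl p A₁ (hua ⟨p, hp⟩)
    · haveI := hN p (not_lt.mp hp)
      haveI : Subsingleton (A₁ ⊗[A] Coh.HH Z M p) := inferInstance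
      infer_instance

end Main

end Groth.Agent.Pic13.H949.PushAff
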